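import Cfsg.Agent.H2.U3
import Cfsg.Agent.H2.Psl34
import Cfsg.Agent.H9.Gasch
import Cfsg.Agent.KO.T

/-! Central extensions of `L₃(4)` by elementary abelian 2-groups: the parabolic subgroups. -/

set_option autoImplicit false

namespace C4

open Subgroup Matrix H2

variable {F : Type*} [Field F]

abbrev Γ (F : Type*) [Field F] := SpecialLinearGroup (Fin 3) F
abbrev Y (F : Type*) [Field F] := ProjectiveSpecialLinearGroup (Fin 3) F

/-- a matrix of determinant one -/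
def mkS {n : ℕ} (A : Matrix (Fin n) (Fin n) F) (h : A.det = 1) : SpecialLinearGroup (Fin n) F := ⟨A, h⟩

@[simp] theorem mkS_val {n : ℕ} (A : Matrix (Fin n) (Fin n) F) (h : A.det = 1) : (mkS A h).1 = A := rfl

/-- the projection -/
def pr : Γ F →* Y F := QuotientGroup.mk' (center (Γ F))

theorem pr_surj : Function.Surjective (pr : Γ F →* Y F) := QuotientGroup.mk'_surjective _

theorem pr_eq {M N : Γ F} (h : pr M = pr N) : ∃ r : F, r ^ 3 = 1 ∧ M.1 = r • N.1 := by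
  obtain ⟨z, hz, rfl⟩ := (QuotientGroup.mk'_eq_mk' _).1 h.symm
  obtain ⟨r, h1, h2⟩ := Matrix.SpecialLinearGroup.mem_center_iff.1 hz
  refine ⟨r, by simpa using h1, ?_⟩
  rw [Matrix.SpecialLinearGroup.coe_mul, ← h2]
  ext i j
  simp [mul_comm]

theorem pr_of {M N : Γ F} {r : F} (h1 : r ^ 3 = 1) (h : M.1 = r • N.1) : pr M = pr N := by
  refine ((QuotientGroup.mk'_eq_mk' _).2 ⟨mkS (scalar _ r) (by simpa using h1),
    Matrix.SpecialLinearGroup.mem_center_iff.2 ⟨r, by simpa using h1, rfl⟩, Subtype.ext ?_⟩).symm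
  rw [Matrix.SpecialLinearGroup.coe_mul, h]
  ext i j
  simp [mul_comm]

/-- the Sylow subgroup -/
def ι : Heis F →* Y F := pr.comp Heis.toSL

theorem ι_inj : Function.Injective (ι : Heis F →* Y F) := by
  rw [injective_iff_map_eq_one]
  intro x hx
  exact Heis.eq_one_of_central x (by simpa [ι, pr] using hx)

def V1 : Subgroup (Heis F) where
  carrier := {x | x.b = 0}
  mul_mem' {x y} hx hy := by simp_all
  one_mem' := rfl
  inv_mem' {x} hx := by simp_all

def V2 : Subgroup (Heis F) where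
  carrier := {x | x.a = 0}
  mul_mem' {x y} hx hy := by simp_all
  one_mem' := rfl
  inv_mem' {x} hx := by simp_all

theorem mem_V1 {x : Heis F} : x ∈ V1 ↔ x.b = 0 := Iff.rfl
theorem mem_V2 {x : Heis F} : x ∈ V2 ↔ x.a = 0 := Iff.rfl

/-- the stabilizer of a point -/
def P1 [Finite F] : Subgroup (Γ F) := KO.fsub {M | M.1 1 0 = 0 ∧ M.1 2 0 = 0} (by simp)
  fun M N hM hN => by simp [mul_apply, Fin.sum_univ_three, hM.1, hM.2, hN.1, hN.2]

variable [Finite F]

theorem mem_P1 {M : Γ F} : M ∈ P1 ↔ M.1 1 0 = 0 ∧ M.1 2 0 = 0 := Iff.rfl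

theorem P1_det (M : P1 (F := F)) :
    M.1.1 0 0 * (M.1.1 1 1 * M.1.1 2 2 - M.1.1 1 2 * M.1.1 2 1) = 1 := by
  have := M.1.2
  rw [det_fin_three, M.2.1, M.2.2] at this
  linear_combination this

/-- the Levi quotient -/
def lev (h4 : ∀ a : F, a ^ 4 = a) : P1 (F := F) →* SpecialLinearGroup (Fin 2) F :=
  MonoidHom.mk' (fun M => mkS (M.1.1 0 0 ^ 2 • !![M.1.1 1 1, M.1.1 1 2; M.1.1 2 1, M.1.1 2 2]) (by
    rw [det_smul, det_fin_two_of, Fintype.card_fin, ← pow_mul, h4, P1_det])) fun M N => by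
    have h1 := M.2.1
    have h2 := M.2.2
    have h3 := N.2.1
    have h4 := N.2.2
    ext i j
    fin_cases i <;> fin_cases j <;>
      simp [mul_apply, Fin.sum_univ_three, Fin.sum_univ_two, h1, h2, h3, h4] <;> ring

theorem lev_val (h4 : ∀ a : F, a ^ 4 = a) (M : P1 (F := F)) : (lev h4 M).1 =
    M.1.1 0 0 ^ 2 • !![M.1.1 1 1, M.1.1 1 2; M.1.1 2 1, M.1.1 2 2] := rfl

theorem lev_surj (h4 : ∀ a : F, a ^ 4 = a) : Function.Surjective (lev h4) := fun B => by
  refine ⟨⟨mkS !![1, 0, 0; 0, B.1 0 0, B.1 0 1; 0, B.1 1 0, B.1 1 1] ?_, rfl, rfl⟩, ?_⟩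
  · have := B.2
    rw [det_fin_two] at this
    rw [det_fin_three]; simpa using this
  · ext i j
    fin_cases i <;> fin_cases j <;> simp [lev_val]

theorem lev_ker (h4 : ∀ a : F, a ^ 4 = a) (h2 : (2 : F) = 0) (M : P1 (F := F)) :
    lev h4 M ∈ center _ ↔ pr M.1 ∈ V1.map ι := by
  have hd := P1_det M
  have h0 : M.1.1 0 0 ≠ 0 := fun e => by simp [e] at hd
  have h3 : M.1.1 0 0 ^ 3 = 1 := mul_left_cancel₀ h0 (by linear_combination h4 (M.1.1 0 0))
  constructor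
  · intro h
    obtain ⟨r, h5, h6⟩ := Matrix.SpecialLinearGroup.mem_center_iff.1 h
    have h7 : r = 1 := by
      have : (r - 1) ^ 2 = 0 := by
        rw [Fintype.card_fin] at h5
        linear_combination h5 + (1 - r) * h2
      exact sub_eq_zero.1 (pow_eq_zero_iff two_ne_zero |>.1 this)
    have e := fun i j => congrFun (congrFun h6 i) j
    have e1 := e 0 0
    have e2 := e 0 1
    have e3 := e 1 0
    have e4 := e 1 1
    simp [lev_val, h7, h0] at e1 e2 e3 e4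
    refine ⟨⟨M.1.1 0 0 ^ 2 * M.1.1 0 1, 0, M.1.1 0 0 ^ 2 * M.1.1 0 2⟩, rfl,
      (pr_of h3 ?_).symm⟩
    ext i j
    fin_cases i <;> fin_cases j <;> simp [Heis.toSL_val, M.2.1, M.2.2, e2, e3]
    · linear_combination (-M.1.1 0 1) * h3
    · linear_combination (-M.1.1 0 2) * h3
    · linear_combination (-M.1.1 1 1) * h3 - M.1.1 0 0 * e1
    · linear_combination (-M.1.1 2 2) * h3 - M.1.1 0 0 * e4
  · rintro ⟨x, hx, e⟩
    obtain ⟨r, h5, h6⟩ := pr_eq e.symm
    have : lev h4 M = 1 := by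
      ext i j
      fin_cases i <;> fin_cases j <;> simp [lev_val, h6, Heis.toSL_val, mem_V1.1 hx] <;>
        linear_combination h5
    rw [this]; exact one_mem _

theorem nor_iff (h4 : ∀ a : F, a ^ 4 = a) (h2 : (2 : F) = 0) (M : Γ F) :
    pr M ∈ normalizer (V1.map (ι (F := F)) : Set (Y F)) ↔ M ∈ P1 := by
  constructor
  · intro h
    obtain ⟨x, hx, e⟩ := (mem_normalizer_iff.1 h _).1
      (mem_map_of_mem ι (show (⟨0, 0, 1⟩ : Heis F) ∈ V1 from rfl))
    have e1 : pr (M * Heis.toSL ⟨0, 0, 1⟩) = pr (Heis.toSL x * M) := by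
      rw [map_mul, map_mul]; exact (mul_inv_eq_iff_eq_mul.1 e.symm)
    obtain ⟨r, -, h6⟩ := pr_eq e1
    have e := fun i j => congrFun (congrFun h6 i) j
    have a1 := e 1 0
    have a2 := e 2 0
    have a3 := e 1 2
    have a4 := e 2 2
    simp [mul_apply, Fin.sum_univ_three, Heis.toSL_val, mem_V1.1 hx, vecMul, dotProduct] at a1 a2 a3 a4
    by_cases hr : r = 1
    · rw [hr] at a3 a4
      exact ⟨by linear_combination a3, by linear_combination a4⟩
    · have : 1 - r ≠ 0 := sub_ne_zero.2 (Ne.symm hr)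
      exact ⟨mul_left_cancel₀ this (by linear_combination a1),
        mul_left_cancel₀ this (by linear_combination a2)⟩
  · intro h
    refine mem_normalizer_fintype ?_
    rintro _ ⟨x, hx, rfl⟩
    have h1 : Heis.toSL x ∈ P1 := ⟨rfl, rfl⟩
    have h3 := (lev_ker h4 h2 ⟨_, h1⟩).2 ⟨x, hx, rfl⟩
    have := (lev_ker h4 h2 (⟨M, h⟩ * ⟨_, h1⟩ * ⟨M, h⟩⁻¹)).1 (by
      rw [map_mul, map_mul, map_inv]
      exact Subgroup.Normal.conj_mem inferInstance _ h3 _)
    simpa [ι] using this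

theorem ex_lev (h4 : ∀ a : F, a ^ 4 = a) (h2 : (2 : F) = 0) :
    ∃ f : normalizer (V1.map (ι (F := F)) : Set (Y F)) →* ProjectiveSpecialLinearGroup (Fin 2) F,
      Function.Surjective f ∧ ∀ n, f n = 1 ↔ n.1 ∈ V1.map ι := by
  let p : P1 (F := F) →* normalizer (V1.map (ι (F := F)) : Set (Y F)) :=
    (pr.comp P1.subtype).codRestrict _ fun M => (nor_iff h4 h2 _).2 M.2
  have hp : Function.Surjective p := by
    rintro ⟨y, hy⟩
    obtain ⟨M, rfl⟩ := pr_surj y
    exact ⟨⟨M, (nor_iff h4 h2 _).1 hy⟩, rfl⟩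
  let g := (QuotientGroup.mk' (center _)).comp (lev h4)
  have hg : ∀ M, g M = 1 ↔ (p M).1 ∈ V1.map ι := fun M =>
    (QuotientGroup.eq_one_iff _).trans (lev_ker h4 h2 M)
  let f := p.liftOfSurjective hp ⟨g, fun M hM => (hg M).2 (by
    rw [MonoidHom.mem_ker.1 hM]; exact one_mem _)⟩
  have hf : ∀ M, f (p M) = g M := fun M => p.liftOfRightInverse_comp_apply _ _ _ M
  refine ⟨f, fun y => ?_, fun n => ?_⟩
  · obtain ⟨M, rfl⟩ := ((QuotientGroup.mk'_surjective _).comp (lev_surj h4)) y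
    exact ⟨p M, hf M⟩
  · obtain ⟨M, rfl⟩ := hp n
    rw [hf, hg]

omit [Finite F] in
theorem V1_conj {x : Heis F} (hx : x ∈ V1) (h1 : x ≠ 1) : IsConj (ι x) (ι (⟨0, 0, 1⟩ : Heis F)) := by
  obtain ⟨p, q, h⟩ : ∃ p q : F, p * x.c - q * x.a = 1 := by
    by_cases hc : x.c = 0
    · have ha : x.a ≠ 0 := fun ha => h1 (Heis.ext ha hx hc)
      exact ⟨0, -x.a⁻¹, by simp [ha]⟩
    · exact ⟨x.c⁻¹, 0, by simp [hc]⟩
  refine isConj_iff.2 ⟨pr (mkS !![1, 0, 0; 0, p, q; 0, x.a, x.c] (by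
    rw [det_fin_three]; simpa using h)), ?_⟩
  rw [mul_inv_eq_iff_eq_mul]
  change pr _ * pr _ = pr _ * pr _
  rw [← map_mul, ← map_mul]
  congr 1
  ext i j
  fin_cases i <;> fin_cases j <;>
    simp [mul_apply, Fin.sum_univ_three, Heis.toSL_val, mem_V1.1 hx]

omit [Finite F] in
/-- the graph automorphism -/
theorem ex_graph : ∃ σ : Y F ≃* Y F, ∀ x : Heis F, σ (ι x) = ι ⟨x.b, x.a, x.a * x.b - x.c⟩ := by
  let J : Γ F := mkS !![0, 0, 1; 0, -1, 0; 1, 0, 0] (by simp [det_fin_three])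
  have hJ : J * J = 1 := by
    ext i j
    fin_cases i <;> fin_cases j <;> simp [J, mul_apply, Fin.sum_univ_three]
  have t1 : ∀ M N : Γ F, (M * N).transpose = N.transpose * M.transpose := fun M N =>
    Subtype.ext (transpose_mul _ _)
  have t2 : ∀ M : Γ F, M.transpose.transpose = M := fun M => rfl
  have t3 : ∀ M : Γ F, (M⁻¹).transpose = M.transpose⁻¹ := fun M =>
    eq_inv_of_mul_eq_one_left (by rw [← t1, mul_inv_cancel]; exact Subtype.ext transpose_one)
  have t4 : J.transpose = J := by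
    ext i j
    fin_cases i <;> fin_cases j <;> rfl
  let s : Γ F →* Γ F := MonoidHom.mk' (fun M => J * M⁻¹.transpose * J) fun M N => by
    rw [_root_.mul_inv_rev, t1]
    calc _ = J * M⁻¹.transpose * (J * J) * N⁻¹.transpose * J := by rw [hJ]; group
      _ = _ := by group
  have hs : ∀ M, s (s M) = M := fun M => by
    change J * (J * M⁻¹.transpose * J)⁻¹.transpose * J = M
    rw [t3, t1, t1, t2, t4, _root_.mul_inv_rev, _root_.mul_inv_rev, inv_inv,
      inv_eq_of_mul_eq_one_left hJ]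
    calc _ = J * J * M * (J * J) := by group
      _ = _ := by rw [hJ]; group
  refine ⟨quotCenterCongr (MonoidHom.toMulEquiv s s (MonoidHom.ext hs) (MonoidHom.ext hs)),
    fun x => ?_⟩
  change pr (J * (Heis.toSL x)⁻¹.transpose * J) = pr (Heis.toSL _)
  rw [← map_inv]
  congr 1
  ext i j
  fin_cases i <;> fin_cases j <;>
    simp [J, mul_apply, Fin.sum_univ_three, Heis.toSL_val, vecMul, dotProduct,
      Matrix.SpecialLinearGroup.coe_transpose]

theorem heis_ea (hF : Nat.card F = 4) {E : Subgroup (Heis F)} (h : ∀ x ∈ E, x * x = 1)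
    (hc : Nat.card E = 16) : E = V1 ∨ E = V2 := by
  have h1 : ∀ x ∈ E, x.a = 0 ∨ x.b = 0 := fun x hx => by
    have a := congrArg Heis.c (h x hx)
    have b := congrArg Heis.c (h _ (mul_mem hx hx))
    have a1 := congrArg Heis.a (h x hx)
    by_cases h2 : (2 : F) = 0
    · exact mul_eq_zero.1 (by simp at a; linear_combination a - x.c * h2)
    · exact Or.inl (mul_left_cancel₀ h2 (by simp at a1; linear_combination a1))
  have c1 : Nat.card (V1 (F := F)) ≤ 16 := by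
    have := Nat.card_le_card_of_injective (fun x : V1 (F := F) => (x.1.a, x.1.c)) fun x y e =>
      Subtype.ext (Heis.ext (congrArg Prod.fst e) (x.2.trans y.2.symm) (congrArg Prod.snd e))
    rwa [Nat.card_prod, hF] at this
  have c2 : Nat.card (V2 (F := F)) ≤ 16 := by
    have := Nat.card_le_card_of_injective (fun x : V2 (F := F) => (x.1.b, x.1.c)) fun x y e =>
      Subtype.ext (Heis.ext (x.2.trans y.2.symm) (congrArg Prod.fst e) (congrArg Prod.snd e))
    rwa [Nat.card_prod, hF] at this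
  have : Finite (Heis F) := Finite.of_equiv _ Heis.equivProd.symm
  by_cases h2 : E ≤ V1
  · exact Or.inl (eq_of_le_of_card_ge h2 (hc ▸ c1))
  · refine Or.inr (eq_of_le_of_card_ge (fun y hy => ?_) (hc ▸ c2))
    obtain ⟨x, hx, hx'⟩ := SetLike.not_le_iff_exists.1 h2
    have a := (h1 x hx).resolve_right hx'
    refine (h1 y hy).elim id fun b => ?_
    rcases h1 _ (mul_mem hx hy) with e | e
    · simpa [a, mem_V2] using e
    · exact absurd (by simpa [b, mem_V1] using e) hx'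

variable {X : Type*} [Group X]

omit [Finite F] in
theorem ea_compl [Finite X] (H : Subgroup X) {K : Subgroup X} (hK : ∀ k ∈ K, k * k = 1) :
    ∃ C ≤ K, (∀ c ∈ C, c ∈ H → c = 1) ∧ ∀ k ∈ K, ∃ c ∈ C, k * c ∈ H := by
  have cm : ∀ a ∈ K, ∀ b ∈ K, a * b = b * a := fun a ha b hb => by
    rw [← inv_eq_of_mul_eq_one_left (hK _ (mul_mem ha hb)), _root_.mul_inv_rev,
      inv_eq_of_mul_eq_one_left (hK a ha), inv_eq_of_mul_eq_one_left (hK b hb)]
  obtain ⟨C, ⟨h1, h2⟩, hm⟩ := Set.Finite.exists_maximal (s := {C : Subgroup X | C ≤ K ∧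
    ∀ c ∈ C, c ∈ H → c = 1}) (Set.toFinite _) ⟨⊥, bot_le, fun c hc _ => hc⟩
  refine ⟨C, h1, h2, fun k hk => ?_⟩
  by_contra h
  push Not at h
  let D : Subgroup X := KO.fsub {x | x ∈ C ∨ k * x ∈ C} (Or.inl (one_mem _)) (by
    have m : ∀ x, k * x ∈ C → x ∈ K := fun x hx => (mul_mem_cancel_left hk).1 (h1 hx)
    rintro x y (hx | hx) (hy | hy)
    · exact Or.inl (mul_mem hx hy)
    · right; rw [← mul_assoc, cm k hk x (h1 hx), mul_assoc]; exact mul_mem hx hy
    · right; rw [← mul_assoc]; exact mul_mem hx hy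
    · left
      have := mul_mem hx hy
      rwa [cm k hk x (m x hx), mul_assoc, ← mul_assoc k, hK k hk, one_mul] at this)
  have h3 : D ≤ C := hm ⟨by
    rintro x (hx | hx)
    · exact h1 hx
    · exact (mul_mem_cancel_left hk).1 (h1 hx), by
    rintro x (hx | hx) hH
    · exact h2 x hx hH
    · exact absurd (by rwa [← mul_assoc, hK k hk, one_mul]) (h _ hx)⟩ fun x hx => Or.inl hx
  have h4 : k ∈ C := h3 (Or.inr (by rw [hK k hk]; exact one_mem _))
  exact h k h4 (by rw [hK k hk]; exact one_mem _)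

/-- a central extension by an elementary abelian 2-group -/
structure CE (ψ : X →* Y F) : Prop where
  surj : Function.Surjective ψ
  ker : ∀ x, ψ x = 1 ↔ x ∈ center X
  sq : ∀ z ∈ center X, z * z = 1

omit [Finite F] in
theorem CE.comp {ψ : X →* Y F} (h : CE ψ) (σ : Y F ≃* Y F) : CE (σ.toMonoidHom.comp ψ) :=
  ⟨σ.surjective.comp h.surj, fun x => by simpa using h.ker x, h.sq⟩

omit [Finite F] in
theorem CE.ea {ψ : X →* Y F} (h : CE ψ) (hF : Nat.card F = 4) (h2 : (2 : F) = 0) {x : X}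
    (hx : ψ x ∈ V1.map ι) : x * x = 1 := by
  have s1 : ∀ v ∈ V1 (F := F), v * v = 1 := fun v hv =>
    Heis.ext (by simp; linear_combination v.a * h2) (by simp [mem_V1.1 hv])
      (by simp [mem_V1.1 hv]; linear_combination v.c * h2)
  obtain ⟨y, hy⟩ := h.surj (ι ⟨0, 0, 1⟩)
  have cy : y * y ∈ center X := (h.ker _).1 (by rw [map_mul, hy, ← map_mul, s1 _ rfl, map_one])
  have s2 : ∀ x v, ψ x = ι v → v ∈ V1 → v ≠ 1 → x * x = y * y := fun x v e hv h1 => by
    obtain ⟨g, hg⟩ := isConj_iff.1 (V1_conj hv h1).symm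
    obtain ⟨g, rfl⟩ := h.surj g
    have h3 : (g * y * g⁻¹)⁻¹ * x ∈ center X := (h.ker _).1 (by
      rw [map_mul, map_inv, map_mul, map_mul, map_inv, hy, hg, e, inv_mul_cancel])
    obtain ⟨z, hz⟩ : ∃ z, z = (g * y * g⁻¹)⁻¹ * x := ⟨_, rfl⟩
    rw [← hz] at h3
    rw [eq_inv_mul_iff_mul_eq.1 hz |>.symm]
    calc _ = g * y * g⁻¹ * (z * (g * y * g⁻¹)) * z := by group
      _ = g * (y * y) * g⁻¹ * (z * z) := by rw [← mem_center_iff.1 h3]; group
      _ = _ := by rw [h.sq z h3, mem_center_iff.1 cy g]; group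
  have s3 : ∀ a b u v, ψ a = ι u → ψ b = ι v → u ∈ V1 → v ∈ V1 → u ≠ 1 → v ≠ 1 → u * v ≠ 1 →
      b * a = a * b * (y * y) := fun a b u v ea eb hu hv u1 v1 uv => by
    have e1 := s2 a u ea hu u1
    have e2 := s2 b v eb hv v1
    have e3 := s2 (a * b) (u * v) (by rw [map_mul, map_mul, ea, eb]) (mul_mem hu hv) uv
    generalize y * y = c at *
    have e4 := h.sq c cy
    have e5 := mem_center_iff.1 cy
    have e6 : a⁻¹ = a * c := inv_eq_of_mul_eq_one_right (by rw [← mul_assoc, e1, e4])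
    have e7 : b⁻¹ = b * c := inv_eq_of_mul_eq_one_right (by rw [← mul_assoc, e2, e4])
    calc b * a = a⁻¹ * (a * b * (a * b)) * b⁻¹ := by group
      _ = a * (c * c) * b * c := by rw [e3, e6, e7]; group
      _ = _ := by rw [e4, mul_one]
  obtain ⟨ω, w0, w1⟩ : ∃ ω : F, ω ≠ 0 ∧ ω ≠ 1 := by
    by_contra hc
    push Not at hc
    have := Nat.card_le_card_of_surjective (fun b : Bool => if b then (1 : F) else 0) fun a => by
      by_cases ha : a = 0
      · exact ⟨false, ha.symm⟩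
      · exact ⟨true, (hc a ha).symm⟩
    simp [hF] at this
  have w2 : 1 + ω ≠ 0 := fun e => w1 (by linear_combination e - h2)
  obtain ⟨a, ha⟩ := h.surj (ι ⟨1, 0, 0⟩)
  obtain ⟨w, hw⟩ := h.surj (ι ⟨ω, 0, 0⟩)
  have n : ∀ v : Heis F, v.a ≠ 0 → v ≠ 1 := fun v h e => h (by rw [e]; rfl)
  have e1 := s3 a y _ _ ha hy rfl rfl (n _ one_ne_zero) (fun e => by simpa using congrArg Heis.c e)
    (n _ (by simp))
  have e2 := s3 a w _ _ ha hw rfl rfl (n _ one_ne_zero) (n _ w0) (n _ w2)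
  have e3 := s3 a (y * w) _ _ ha (by rw [map_mul, hy, hw, ← map_mul]) rfl (by simp [mem_V1])
    (n _ one_ne_zero) (n _ (by simpa using w0)) (n _ (by simpa using w2))
  have e4 : y * y = 1 := by
    generalize y * y = c at *
    rw [mul_assoc y w, e2, ← mul_assoc, ← mul_assoc, e1, mul_left_inj, mul_assoc (a * y),
      ← mem_center_iff.1 cy, ← mul_assoc, ← mul_assoc] at e3
    exact mul_eq_left.1 e3
  obtain ⟨v, hv, e⟩ := hx
  by_cases h1 : v = 1
  · exact h.sq x ((h.ker x).1 (by rw [← e, h1, map_one]))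
  · rw [s2 x v e.symm hv h1, e4]

theorem CE.split [Finite X] {ψ : X →* Y F} (h : CE ψ) (hF : Nat.card F = 4)
    (h4 : ∀ a : F, a ^ 4 = a) (h2 : (2 : F) = 0)
    (hK : ∀ x, ψ x ∈ V2.map ι → x * x = 1) (T : Sylow 2 X) (hT : ∀ t ∈ T, ψ t ∈ ι.range)
    {H : Subgroup X} (hH : H = (V1.map ι).comap ψ) (hHT : H ≤ T) :
    ∃ C : Subgroup X, C ≤ normalizer (H : Set X) ∧ C ⊓ H = ⊥ ∧ H ⊔ C = normalizer (H : Set X) ∧
      Nonempty (C ≃* ProjectiveSpecialLinearGroup (Fin 2) F) := by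
  have mH : ∀ x, x ∈ H ↔ ψ x ∈ V1.map ι := fun x => by rw [hH]; rfl
  have hN : ∀ x, x ∈ normalizer (H : Set X) ↔ ψ x ∈ normalizer (V1.map (ι (F := F)) : Set (Y F)) :=
    fun x => by rw [hH, ← comap_normalizer_eq_of_surjective _ h.surj]; rfl
  have sH : ∀ x ∈ H, x * x = 1 := fun x hx => h.ea hF h2 ((mH x).1 hx)
  have cm : ∀ a ∈ H, ∀ b ∈ H, a * b = b * a := fun a ha b hb => by
    rw [← inv_eq_of_mul_eq_one_left (sH _ (mul_mem ha hb)), _root_.mul_inv_rev,
      inv_eq_of_mul_eq_one_left (sH a ha), inv_eq_of_mul_eq_one_left (sH b hb)]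
  obtain ⟨C0, c1, c2, c3⟩ := ea_compl H (K := (V2.map ι).comap ψ) hK
  have hTN : (T : Subgroup X) ≤ normalizer (H : Set X) := fun t ht => by
    obtain ⟨x, hx⟩ := hT t ht
    rw [hN, ← hx]
    exact (nor_iff h4 h2 _).2 ⟨rfl, rfl⟩
  have dec : ∀ t ∈ (T : Subgroup X), ∃ c ∈ C0, t * c ∈ H := fun t ht => by
    obtain ⟨x, hx⟩ := hT t ht
    obtain ⟨k, hk⟩ := h.surj (ι ⟨0, x.b, 0⟩)
    obtain ⟨c, hc, e⟩ := c3 k ⟨_, rfl, hk.symm⟩
    refine ⟨c, hc, ?_⟩
    rw [show t * c = t * k⁻¹ * (k * c) by group]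
    refine mul_mem ((mH _).2 ?_) e
    rw [map_mul, map_inv, hk, ← hx, ← map_inv, ← map_mul]
    exact mem_map_of_mem _ (by simp [mem_V1])
  choose! cc d1 d2 using dec
  have uq : ∀ t ∈ (T : Subgroup X), ∀ c ∈ C0, t * c ∈ H → cc t = c := fun t ht c hc e => by
    have := c2 _ (mul_mem (inv_mem (d1 t ht)) hc) (by
      simpa [mul_assoc] using mul_mem (inv_mem (d2 t ht)) e)
    exact inv_mul_eq_one.1 this
  have : (H.subgroupOf (normalizer (H : Set X))).Normal := normal_in_normalizer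
  obtain ⟨J, j1, j2⟩ := H9.gaschutz_aux (H.subgroupOf (normalizer (H : Set X)))
    ((T : Subgroup X).subgroupOf _) (fun a ha b hb => Subtype.ext (cm _ ha _ hb))
    (comap_mono hHT) (by
      obtain ⟨m, hm⟩ := (H5.isPGroup_subgroupOf (T.2.to_le hHT) (normalizer (H : Set X))).exists_card_eq
      rw [hm]
      refine Nat.Coprime.pow_left _ ((Nat.Prime.coprime_iff_not_dvd Nat.prime_two).2 fun e => ?_)
      exact T.not_dvd_index (e.trans (relIndex_dvd_index_of_le hTN)))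
    (fun u => by classical exact if hu : u.1 ∈ (T : Subgroup X) then ⟨u * cc u, le_normalizer (d2 _ hu)⟩ else 1)
    (fun u hu => by rw [dif_pos (mem_subgroupOf.1 hu)]; exact d2 _ hu) (fun u hu v hv => by
      have hu' := mem_subgroupOf.1 hu
      have hv' := mem_subgroupOf.1 hv
      rw [dif_pos hu', dif_pos hv', dif_pos (show ((u * v : normalizer (H : Set X)) : X) ∈ (T : Subgroup X) from mul_mem hu' hv')]
      refine Subtype.ext ?_
      have e1 : (u : X) * v * cc v * (u : X)⁻¹ ∈ H := by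
        simpa [mul_assoc] using (mem_normalizer_iff.1 u.2 _).1 (d2 _ hv')
      change (u : X) * v * cc (u * v) = u * cc u * (u * (v * cc v) * (u : X)⁻¹)
      rw [uq _ (mul_mem hu' hv') (cc v * cc u) (mul_mem (d1 _ hv') (d1 _ hu')) (by
        simpa [mul_assoc] using mul_mem e1 (d2 _ hu')), cm _ (d2 _ hu') _ (by simpa [mul_assoc] using e1)]
      group) (fun a ha => by
      have ha' : (a : X) ∈ (T : Subgroup X) := hHT ha
      rw [dif_pos ha']
      refine Subtype.ext ?_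
      change (a : X) * cc a = a
      rw [uq _ ha' 1 (one_mem _) (by simpa using mem_subgroupOf.1 ha), mul_one])
  obtain ⟨f, f1, f2⟩ := ex_lev h4 h2
  let g := f.comp ((ψ.comp (normalizer (H : Set X)).subtype).codRestrict _ fun n => (hN _).1 n.2)
  have g1 : ∀ n, g n = 1 ↔ n.1 ∈ H := fun n => (f2 _).trans (mH _).symm
  refine ⟨J.map (Subgroup.subtype _), map_subtype_le _, ?_, ?_, ⟨(equivMapOfInjective _ _
    (subtype_injective _)).symm.trans (MulEquiv.ofBijective (g.comp J.subtype) ⟨?_, fun y => ?_⟩)⟩⟩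
  · rw [eq_bot_iff]
    rintro _ ⟨⟨x, hx, rfl⟩, e⟩
    have : x ∈ H.subgroupOf _ ⊓ J := ⟨e, hx⟩
    rw [j2, mem_bot] at this
    rw [this]; exact one_mem _
  · have := congrArg (Subgroup.map (normalizer (H : Set X)).subtype) j1
    rwa [Subgroup.map_sup, map_subgroupOf_eq_of_le le_normalizer, ← MonoidHom.range_eq_map,
      range_subtype] at this
  · refine (injective_iff_map_eq_one _).2 fun x hx => ?_
    have : x.1 ∈ H.subgroupOf _ ⊓ J := ⟨(g1 _).1 hx, x.2⟩
    rw [j2, mem_bot] at this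
    exact Subtype.ext this
  · obtain ⟨⟨n, hn⟩, rfl⟩ := f1 y
    obtain ⟨n, rfl⟩ := h.surj n
    obtain ⟨a, ha, b, hb, e⟩ := mem_sup_of_normal_left.1
      (j1 ▸ mem_top (⟨n, (hN _).2 hn⟩ : normalizer (H : Set X)))
    refine ⟨⟨b, hb⟩, ?_⟩
    change g b = g ⟨n, (hN _).2 hn⟩
    rw [← e, map_mul, (g1 a).2 ha, one_mul]

theorem CE.half [Finite X] {ψ : X →* Y F} (h : CE ψ) (hF : Nat.card F = 4)
    (h4 : ∀ a : F, a ^ 4 = a) (h2 : (2 : F) = 0) (T : Sylow 2 X) (hT : ∀ t ∈ T, ψ t ∈ ι.range)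
    {H K : Subgroup X} (hH : H = (V1.map ι).comap ψ) (hK : K = (V2.map ι).comap ψ) (hHT : H ≤ T)
    (hKT : K ≤ T) : (∀ x ∈ H, x * x = 1) ∧ (∀ x ∈ K, x * x = 1) ∧
    (∀ x ∈ H ⊔ K, (∀ y ∈ H ⊔ K, y * x = x * y) → x ∈ H ⊓ K) ∧
    (∃ C : Subgroup X, C ≤ normalizer (H : Set X) ∧ C ⊓ H = ⊥ ∧ H ⊔ C = normalizer (H : Set X) ∧
      Nonempty (C ≃* ProjectiveSpecialLinearGroup (Fin 2) F)) ∧
    ∃ C : Subgroup X, C ≤ normalizer (K : Set X) ∧ C ⊓ K = ⊥ ∧ K ⊔ C = normalizer (K : Set X) ∧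
      Nonempty (C ≃* ProjectiveSpecialLinearGroup (Fin 2) F) := by
  obtain ⟨σ, hσ⟩ := ex_graph (F := F)
  have hσ' : ∀ x : Heis F, σ (ι ⟨x.b, x.a, x.a * x.b - x.c⟩) = ι x := fun x => by
    rw [hσ]; congr 1; ext <;> simp [mul_comm]
  have e1 : ∀ y, σ y ∈ V1.map ι ↔ y ∈ V2.map ι := fun y => by
    constructor
    · rintro ⟨x, hx, e⟩
      exact ⟨⟨x.b, x.a, x.a * x.b - x.c⟩, hx, σ.injective ((hσ' x).trans e)⟩
    · rintro ⟨x, hx, rfl⟩
      exact ⟨_, hx, (hσ x).symm⟩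
  have e2 : ∀ y, σ y ∈ V2.map ι → y ∈ V1.map ι := fun y => by
    rintro ⟨x, hx, e⟩
    exact ⟨⟨x.b, x.a, x.a * x.b - x.c⟩, hx, σ.injective ((hσ' x).trans e)⟩
  have s2 : ∀ x, ψ x ∈ V2.map ι → x * x = 1 := fun x hx => (h.comp σ).ea hF h2 ((e1 _).2 hx)
  refine ⟨fun x hx => h.ea hF h2 (by rwa [hH] at hx), fun x hx => s2 x (by rwa [hK] at hx),
    fun x hx hc => ?_, h.split hF h4 h2 s2 T hT hH hHT, (h.comp σ).split hF h4 h2
      (fun x hx => h.ea hF h2 (e2 _ hx)) T (fun t ht => ?_) (by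
        rw [hK]; ext x; exact (e1 _).symm) hKT⟩
  · obtain ⟨v, hv⟩ := hT x (sup_le hHT hKT hx)
    obtain ⟨a, ha⟩ := h.surj (ι ⟨1, 0, 0⟩)
    obtain ⟨b, hb⟩ := h.surj (ι ⟨0, 1, 0⟩)
    have a1 := congrArg ψ (hc a (mem_sup_left (by rw [hH]; exact ⟨_, rfl, ha.symm⟩)))
    have a2 := congrArg ψ (hc b (mem_sup_right (by rw [hK]; exact ⟨_, rfl, hb.symm⟩)))
    rw [map_mul, map_mul, ← hv] at a1 a2
    rw [ha, ← map_mul, ← map_mul] at a1
    rw [hb, ← map_mul, ← map_mul] at a2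
    rw [hH, hK]
    exact ⟨⟨v, by simpa [mem_V1] using congrArg Heis.c (ι_inj a1), hv⟩,
      ⟨v, by simpa [mem_V2] using congrArg Heis.c (ι_inj a2), hv⟩⟩
  · obtain ⟨x, hx⟩ := hT t ht
    exact ⟨_, (hσ x).symm.trans (congrArg σ hx)⟩

theorem main {X : Type*} [Group X] [Finite X] (hZ : ∀ z ∈ center X, z * z = 1)
    {F : Type*} [Field F] [Fintype F] (hF : Fintype.card F = 4) (φ : (X ⧸ center X) ≃* Y F)
    (T : Sylow 2 X) (H K : Subgroup X) (hHK : H ≠ K) (hHT : H ≤ T) (hKT : K ≤ T)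
    (hZH : center X ≤ H) (hZK : center X ≤ K)
    (hH : ∀ x ∈ H.map (QuotientGroup.mk' (center X)), x * x = 1)
    (cH : Nat.card (H.map (QuotientGroup.mk' (center X))) = 16)
    (hK : ∀ x ∈ K.map (QuotientGroup.mk' (center X)), x * x = 1)
    (cK : Nat.card (K.map (QuotientGroup.mk' (center X))) = 16) :
    (∀ x ∈ H, x * x = 1) ∧ (∀ x ∈ K, x * x = 1) ∧
    (∀ x ∈ H ⊔ K, (∀ y ∈ H ⊔ K, y * x = x * y) → x ∈ H ⊓ K) ∧
    (∃ C : Subgroup X, C ≤ normalizer (H : Set X) ∧ C ⊓ H = ⊥ ∧ H ⊔ C = normalizer (H : Set X) ∧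
      Nonempty (C ≃* ProjectiveSpecialLinearGroup (Fin 2) F)) ∧
    ∃ C : Subgroup X, C ≤ normalizer (K : Set X) ∧ C ⊓ K = ⊥ ∧ K ⊔ C = normalizer (K : Set X) ∧
      Nonempty (C ≃* ProjectiveSpecialLinearGroup (Fin 2) F) := by
  have hF' : Nat.card F = 4 := by rw [Nat.card_eq_fintype_card, hF]
  have h4 : ∀ a : F, a ^ 4 = a := fun a => by rw [← hF]; exact FiniteField.pow_card a
  have h2 : (2 : F) = 0 := two_eq_zero_of_card (k := 2) hF
  have c1 : Nat.card (ι (F := F)).range = 64 := by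
    rw [← Nat.card_congr (MonoidHom.ofInjective ι_inj).toEquiv, Heis.card_eq, hF']; rfl
  have hS : H5.IsSylowOf 2 (ι (F := F)).range ⊤ := ⟨le_top, IsPGroup.of_card (n := 6) c1, by
    have := (ι (F := F)).range.card_mul_index
    rw [c1, (psl34_simple F hF).2] at this
    rw [relIndex_top_right]
    omega⟩
  obtain ⟨g, -, hg⟩ := hS.exists_conj_le
    (T.2.map (φ.toMonoidHom.comp (QuotientGroup.mk' (center X)))) le_top
  let χ := φ.trans (MulAut.conj g)
  let ψ := χ.toMonoidHom.comp (QuotientGroup.mk' (center X))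
  have h : CE ψ := ⟨χ.surjective.comp (QuotientGroup.mk'_surjective _), fun x => by simp [ψ], hZ⟩
  have hT : ∀ t ∈ T, ψ t ∈ ι.range := fun t ht => hg (mem_map_of_mem _ (mem_map_of_mem _ ht))
  have key : ∀ H : Subgroup X, H ≤ T → center X ≤ H →
      (∀ x ∈ H.map (QuotientGroup.mk' (center X)), x * x = 1) →
      Nat.card (H.map (QuotientGroup.mk' (center X))) = 16 →
      H = (V1.map ι).comap ψ ∨ H = (V2.map ι).comap ψ := fun H h1 h2 h3 h4 => by
    have e1 : H.map ψ ≤ ι.range := by rintro _ ⟨x, hx, rfl⟩; exact hT x (h1 hx)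
    have e2 : ((H.map ψ).comap ι).map ι = H.map ψ := map_comap_eq_self e1
    have e3 : (H.map ψ).comap ψ = H := comap_map_eq_self fun x hx => h2 ((h.ker x).1 hx)
    rcases heis_ea hF' (E := (H.map ψ).comap ι) (fun x ⟨y, hy, e⟩ => ι_inj (by
      rw [map_mul, ← e, map_one]
      change χ _ * χ _ = 1
      rw [← map_mul, h3 _ (mem_map_of_mem _ hy), map_one])) (by
      rw [← card_map_of_injective ι_inj, e2, ← Subgroup.map_map, card_map_of_injective χ.injective, h4])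
      with e | e
    · left; rw [← e, e2, e3]
    · right; rw [← e, e2, e3]
  rcases key H hHT hZH hH cH with e | e <;> rcases key K hKT hZK hK cK with e' | e'
  · exact absurd (e.trans e'.symm) hHK
  · exact h.half hF' h4 h2 T hT e e' hHT hKT
  · obtain ⟨a, b, c, d, f⟩ := h.half hF' h4 h2 T hT e' e hKT hHT
    exact ⟨b, a, by rwa [sup_comm, inf_comm], f, d⟩
  · exact absurd (e.trans e'.symm) hHK

end C4
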